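import Cfsg.Agent.H886.Sq.Orth
import Cfsg.Agent.H97.OmegaDisc
import Cfsg.Agent.ClassicalGeometry.OddInvolutions

/-!
# Degree bounds for `PΩ⁺(2m, q)` and `PΩ⁻(2m, q)` with a central product of order four (helper886)
-/

set_option autoImplicit false
set_option linter.unusedSectionVars false

namespace Cfsg.Agent.H886.Sq

open Cfsg Matrix QuadraticMap
open Cfsg.Agent.LieClassical.OmegaReindex
open Cfsg.Agent.H97.OmegaRank Cfsg.Agent.H97.OmegaDisc

universe u v

variable {ι : Type} [Fintype ι] [DecidableEq ι] {K : Type u} [Field K] [Finite K]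

/-- **The degree bound for a form of square discriminant in dimension `2 mod 4`.** -/
theorem le_deg_of_det (Q : QuadraticForm K (ι → K)) (hQ : (polarBilin Q).Nondegenerate) (h2 : (2 : K) ≠ 0)
    (h10 : 10 ≤ Fintype.card ι) (hmod : Fintype.card ι % 4 = 2) {s : K}
    (hdet : (LinearMap.BilinForm.toMatrix (Pi.basisFun K ι) (polarBilin Q)).det = s * s)
    {F : Type v} [Field F] (h2F : (2 : F) ≠ 0)
    {κ : Type} [Fintype κ] [DecidableEq κ] [Nonempty κ] (P : Subgroup (GL κ F))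
    (e : P ⧸ (Geo.scalars κ F).subgroupOf P ≃* POmega K ⇑Q) : Fintype.card ι ≤ Fintype.card κ := by
  obtain ⟨t, ht⟩ : ∃ t, Fintype.card ι = 2 * t := ⟨Fintype.card ι / 2, by omega⟩
  obtain ⟨R, hR⟩ := exists_dg_of_det h2 hQ (e := 1) (s := s / 2 ^ t) one_ne_zero (by
    rw [hdet, ht]
    have h4 : (2 : K) ^ t ≠ 0 := pow_ne_zero _ h2
    have h5 : (2 * (1 : K)) ^ (2 * t) = 2 ^ t * 2 ^ t := by rw [mul_one, two_mul, pow_add]
    rw [h5]
    field_simp)
  have hfun : (fun v => Q ((R : Matrix ι ι K) *ᵥ v)) = sq ι K := by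
    funext v
    rw [hR.eq]
    simp only [one_mul]
    rfl
  obtain ⟨f⟩ := Cfsg.Agent.ClassicalGeometry.OddInvolutions.pomega_congr (⇑Q) R
  rw [hfun] at f
  exact le_deg_sq h2 h10 hmod h2F P (e.trans f.symm)

theorem sq_mul_of_not {a b : K} (ha : ¬ IsSquare a) (hb : ¬ IsSquare b) : IsSquare (a * b) := by
  classical
  obtain ⟨_⟩ := nonempty_fintype K
  by_cases hF : ringChar K = 2
  · exact absurd (FiniteField.isSquare_of_char_two hF a) ha
  have ha0 : a ≠ 0 := by rintro rfl; exact ha ⟨0, by simp⟩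
  have hb0 : b ≠ 0 := by rintro rfl; exact hb ⟨0, by simp⟩
  rw [← quadraticChar_one_iff_isSquare (mul_ne_zero ha0 hb0), map_mul,
    quadraticChar_neg_one_iff_not_isSquare.2 ha, quadraticChar_neg_one_iff_not_isSquare.2 hb]
  norm_num

omit [Finite K] in
theorem two_ne_of_dvd_sub [Fintype K] (h4 : 4 ∣ Fintype.card K - 1) : (2 : K) ≠ 0 := by
  apply two_ne_zero_of_odd
  have h1 : 1 < Fintype.card K := Fintype.one_lt_card
  rw [Nat.odd_iff]
  omega

omit [Finite K] in
theorem two_ne_of_dvd_add [Fintype K] (h4 : 4 ∣ Fintype.card K + 1) : (2 : K) ≠ 0 := by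
  apply two_ne_zero_of_odd
  rw [Nat.odd_iff]
  omega

omit [Finite K] in
/-- **`PΩ⁺(2m, q)`, `m` odd, `q ≡ 1 mod 4`: no projective representation of degree less than `2m` in odd characteristic.** -/
theorem pomega_plus_deg [Fintype K] {m : ℕ} (hm : 5 ≤ m) (hodd : Odd m) (h4 : 4 ∣ Fintype.card K - 1)
    {F : Type v} [Field F] (h2 : (2 : F) ≠ 0) {κ : Type} [Fintype κ] [DecidableEq κ] [Nonempty κ]
    (P : Subgroup (GL κ F))
    (e : Nonempty (P ⧸ (Geo.scalars κ F).subgroupOf P ≃* POmega K (quadFormPlus m K))) :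
    2 * m ≤ Fintype.card κ := by
  obtain ⟨e⟩ := e
  have h2K := two_ne_of_dvd_sub h4
  have h1 : 1 < Fintype.card K := Fintype.one_lt_card
  obtain ⟨i, hi⟩ : IsSquare (-1 : K) := by
    rw [FiniteField.isSquare_neg_one_iff]
    omega
  have hcard : Fintype.card (Fin m ⊕ Fin m) = 2 * m := by simp; ring
  have hmod : m % 2 = 1 := Nat.odd_iff.1 hodd
  have key := le_deg_of_det (quadPlus m K) quadPlus_nondegenerate h2K (by omega) (by omega)
    (s := i ^ m) (by rw [det_plus, ← mul_pow, ← hi]) h2 P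
    (e.trans (by rw [coe_quadPlus]))
  omega

omit [Finite K] in
/-- **`PΩ⁻(2m+2, q)`, `m` even, `q ≡ 3 mod 4`: no projective representation of degree less than `2m+2` in odd
characteristic.** -/
theorem pomega_minus_deg [Fintype K] {m : ℕ} {a b : K}
    (hab : ∀ z₁ z₂ : K, z₁ ^ 2 + a * z₁ * z₂ + b * z₂ ^ 2 = 0 → z₁ = 0 ∧ z₂ = 0)
    (hm : 4 ≤ m) (heven : Even m) (h4 : 4 ∣ Fintype.card K + 1)
    {F : Type v} [Field F] (h2 : (2 : F) ≠ 0) {κ : Type} [Fintype κ] [DecidableEq κ] [Nonempty κ]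
    (P : Subgroup (GL κ F))
    (e : Nonempty (P ⧸ (Geo.scalars κ F).subgroupOf P ≃* POmega K (quadFormMinus m K a b))) :
    2 * m + 2 ≤ Fintype.card κ := by
  obtain ⟨e⟩ := e
  have h2K := two_ne_of_dvd_add h4
  have hnd := not_isSquare_disc h2K hab
  have hn1 : ¬ IsSquare (-1 : K) := by
    rw [FiniteField.isSquare_neg_one_iff]
    omega
  obtain ⟨s, hs⟩ : IsSquare (4 * b - a ^ 2) := by
    obtain ⟨r, hr⟩ := sq_mul_of_not hnd hn1
    exact ⟨r, by rw [← hr]; ring⟩
  have hcard : Fintype.card ((Fin m ⊕ Fin m) ⊕ Fin 2) = 2 * m + 2 := by simp; ring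
  have hmod : m % 2 = 0 := Nat.even_iff.1 heven
  have key := le_deg_of_det (quadMinus m K a b) (quadMinus_nondegenerate hab) h2K (by omega) (by omega)
    (s := s) (by rw [det_minus, heven.neg_one_pow, one_mul, hs]) h2 P
    (e.trans (by rw [coe_quadMinus]))
  omega

end Cfsg.Agent.H886.Sq
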